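import Cfsg.Agent.H722.Strong.Abs
import Cfsg.Agent.H199.NSmMon
import Cfsg.Agent.H993.NoBadM
import Cfsg.Agent.KFacts.MonsterE
import Cfsg.Agent.H472.ComStrongB

/-!
# The Monster, `p = 3`, strong form (helper722, for S3842, S4094)

* `false_of_str` : no element `x` of order divisible by 3 of the Monster satisfies `[x, D] ≤ O_3(D)` for all proper
  subgroups `D` containing `x`;
* `row`, `row'` : no `MinCtx 3 S x` with `S` isomorphic to the Monster.
-/

set_option autoImplicit false
set_option maxRecDepth 100000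

namespace Cfsg.Agent.H722.MStrong

open Cfsg Cfsg.Agent.MonsterX Cfsg.Agent.MonsterX.InstData Cfsg.Agent.MonsterX.MainPack Cfsg.Agent.MonsterU
open Cfsg.Agent.MonsterP Cfsg.Agent.MonsterN Cfsg.Agent.LThreeMB
open Cfsg.Agent.MonsterX.MainBasic Cfsg.Agent.MonsterX.MainSimple Cfsg.Agent.MonsterX.Model
open Cfsg.Agent.MonsterU.Lam2 Cfsg.Agent.MonsterU.TwoCls
open Cfsg.Agent.BpSpor.MBigModel
open Cfsg.Agent.H722.Strong
open Cfsg.Spor (Co1)
open Subgroup (centralizer zpowers mem_centralizer_singleton_iff center)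

/-- **No element of order divisible by 3 has the strong property.** -/
theorem false_of_str {x : MG} (hs : Str 3 x) (hd : 3 ∣ orderOf x) : False := by
  have hfin := finite
  have hsim := simple
  have hp : Fact (Nat.Prime 3) := ⟨Nat.prime_three⟩
  have htr := KPair.trNe KDone.lft LThreeB.Row.cent (LThreeMBTr.traceNe KDone.lft LThreeMBTr.TensK.tens)
  obtain ⟨x₀, hx₀, hfr, hidx⟩ := H993.NoBadM.exists_zero chart CoOneFin.coOne htr
    (KPair.hasPair KDone.lft LThreeB.Row.cent PreUniq.MonRow.second COct.octPair)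
    (fun y hy ⟨v, hv, hv1, hc⟩ => LThreeM.FiRow.exists_z_of_comm (by rw [← hy, pow_orderOf_eq_one]) hv hv1 hc.symm)
    (by rw [card_M]; norm_num)
  have hsuz := CoOneFin.coOne.suz (pi x₀) (orderOf_pi chart hx₀) hfr
  have hs' : IsSimpleGroup (XX (pi x₀)) := H503.TwoSuz.simple_of hsuz
  have hc : Nat.card (XX (pi x₀)) = 448345497600 := H503.TwoSuz.card_of hsuz
  obtain ⟨N, hN⟩ := BpSpor.M5.exists_rad chart (by norm_num) hx₀ hfr
    (fun d hd hc => isolated chart htr hx₀ hfr d hd hc) hs' (by rw [hc]; decide)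
  obtain ⟨k, hk, hkk⟩ := PreUniq.MonRow.exists_kk Nat.prime_three (by decide) PreUniq.MonThreeRow.neg_three x₀ hx₀ hfr
  have hkk' : k * k = zz := hkk
  have hkz : k * zz = zz * k := by rw [← hkk', mul_assoc]
  have hc20 : 3 ^ 20 ∣ Nat.card ↥(centralizer ({(x₀ : MG)} : Set MG)) := by
    refine Nat.Coprime.dvd_of_dvd_mul_right (k := 3 ^ 20) (n := (centralizer ({(x₀ : MG)} : Set MG)).index) ?_ ?_
    · exact Nat.Coprime.pow_left 20 ((Nat.Prime.coprime_iff_not_dvd Nat.prime_three).2 hidx)
    · rw [Subgroup.card_mul_index, card_M]; norm_num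
  have hZ : center MG = ⊥ := by
    rcases hsim.eq_bot_or_eq_top_of_normal (center MG) inferInstance with h1 | h1
    · exact h1
    · exfalso
      have hmc : IsMulCommutative MG := ⟨⟨fun a b => by
        have : b ∈ center MG := by rw [h1]; trivial
        exact (Subgroup.mem_center_iff.1 this a)⟩⟩
      have hp : (Nat.card MG).Prime := Group.is_simple_iff_prime_card.1 hsim
      rw [card_M] at hp
      exact absurd hp (by norm_num)
  have hodd := hs.odd (by norm_num) hd hZ CTwoTab.Monster.model.bal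
  exact Abs.main (x₀ := (x₀ : MG)) (D := centralizer ({(x₀ : MG)} : Set MG)) mem_centralizer_singleton_iff hsuz hN
    (k := ⟨⟨k, mem_centralizer_singleton_iff.2 hk⟩, mem_centralizer_singleton_iff.2 (Subtype.ext hkz)⟩)
    (Subtype.ext hkk') ((pow_dvd_pow 3 (by norm_num)).trans hc20) (by rw [card_M]; norm_num) hidx hs hd hodd

/-! ### The row -/

universe u

open Cfsg.Agent.H472.ComRed (MinCtx) in
/-- `S = G` if all automorphisms of `S` are inner. -/
theorem eq_top_of_inner {p : ℕ} {G : Type u} [Group G] {S : Subgroup G} {x : G} (hc : MinCtx p S x)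
    (hin : ∀ a : MulAut S, ∃ g, a = MulAut.conj g) : S = ⊤ := by
  have hSn := hc.normal
  rw [eq_top_iff]
  intro g _
  obtain ⟨s, hs⟩ := hin (MulAut.conjNormal g)
  have h1 : (s : G)⁻¹ * g ∈ centralizer (S : Set G) := by
    rw [Subgroup.mem_centralizer_iff]
    intro v hv
    have h2 : ((MulAut.conjNormal g : MulAut S) ⟨v, hv⟩ : G) = ((MulAut.conj s : MulAut S) ⟨v, hv⟩ : S) := by rw [hs]
    rw [MulAut.conjNormal_apply, MulAut.conj_apply] at h2
    have h3 : g * v * g⁻¹ = s * v * (s : G)⁻¹ := h2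
    calc v * ((s : G)⁻¹ * g) = (s : G)⁻¹ * (s * v * (s : G)⁻¹) * g := by group
      _ = (s : G)⁻¹ * (g * v * g⁻¹) * g := by rw [h3]
      _ = (s : G)⁻¹ * g * v := by group
  rw [hc.cent, Subgroup.mem_bot] at h1
  rw [inv_mul_eq_one.1 h1 |>.symm]
  exact s.2

open Cfsg.Agent.H472.ComRed (MinCtx) in
/-- **The row of the Monster, `p = 3`**, if `3` divides the order of `x`. -/
theorem row {G : Type u} [Group G] {S : Subgroup G} {x : G} (h : Spor.IsoM S) (hc : MinCtx 3 S x)
    (hd : 3 ∣ orderOf x) : False := by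
  obtain ⟨e₁⟩ := h
  obtain ⟨e₂⟩ := MonsterP.Equiv.equiv
  let e : S ≃* M.G := e₁.trans e₂
  have htop : S = ⊤ := by
    refine eq_top_of_inner hc fun a => ?_
    obtain ⟨g, hg⟩ := KFacts.MonsterE.inner_model Instance.mGroup Instance.mRep Instance.mLat InstanceFinal.mOrbit
      Instance.mTrans (MulAut.congr e a)
    refine ⟨e.symm g, ?_⟩
    ext s
    have h1 : MulAut.congr e a (e s) = MulAut.conj g (e s) := by rw [hg]
    have h2 : e (a (e.symm (e s))) = g * e s * g⁻¹ := h1
    rw [e.symm_apply_apply] at h2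
    have h3 : a s = e.symm g * s * (e.symm g)⁻¹ := by
      apply e.injective
      rw [h2, map_mul, map_mul, map_inv, e.apply_symm_apply]
    rw [h3, MulAut.conj_apply]
  let f : G ≃* M.G := (Subgroup.topEquiv.symm.trans (MulEquiv.subgroupCongr htop.symm)).trans e
  exact false_of_str (hc.str.congr f) (by rw [MulEquiv.orderOf_eq]; exact hd)

open Cfsg.Agent.H472.ComRed (MinCtx) in
/-- **The row of the Monster, `p = 3`.** -/
theorem row' {G : Type u} [Group G] [Finite G] {S : Subgroup G} {x : G} (h : Spor.IsoM S) (hc : MinCtx 3 S x)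
    (hZ : Cfsg.Agent.H472.ComRed.ZStarThm.{u}) : False :=
  have : Fact (Nat.Prime 3) := ⟨Nat.prime_three⟩
  row h hc (hc.dvd_orderOf hZ)

end Cfsg.Agent.H722.MStrong
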